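import Cfsg.Agent.H974.IFU.Vee
import Cfsg.Agent.H847.IF.PSUfour
import Cfsg.Agent.ClassicalGeometry.PSUAutSylow
import Cfsg.Agent.H680.IF.EngA

/-!
# S5719, `PSU_4(q)`: from `PSU_4(q)` to the special isometry group (helper974)

* `RR_le_iff` : `RR u ≤ A` exactly when the preimage of `A` contains all transvections with centre `u`;
* `card_RR` : the order of `RR u` is `q`; `RR_ne_bot`;
* `nc_of` : no two distinct commuting involutions;
* `norm_RR` : `g u = c u` implies that `g` normalises `RR u`.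
-/

set_option autoImplicit false
set_option linter.unusedSectionVars false

namespace Cfsg.Agent.H974.IFU

open Module Subgroup Cfsg Cfsg.Agent.H91.U Cfsg.Agent.H450.UF Cfsg.Agent.H450.Bs Cfsg.Agent.H838.IF
open Cfsg.Agent.LieClassical.HermBasic Cfsg.Agent.LieClassical.HermSiegel Cfsg.Agent.LieClassical.SUBasic
open Cfsg.Agent.ClassicalGeometry.PSUAutSylow Cfsg.Agent.ClassicalGeometry.PSUAutBasic
open Cfsg.Agent.H77.Witt (formB formB_apply)
open Cfsg.Agent.H847.IF (HA mem_HA pi_eq_one_iff)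

variable {F : Type*} [Field F] [Fintype F] {q n : ℕ}

theorem isTv_toIso (hF : Fintype.card F = q ^ 2) {u : Fin n → F} (hu : hermForm n F q u u = 0) {μ : F}
    (hμ : μ + μ ^ q = 0) : IsTv (formB hF n) u μ (toIso hF (transv hF u hu μ hμ)).1 := by
  intro v
  rw [toIso_apply, act_transv, formB_apply]

theorem RR_le_iff (hF : Fintype.card F = q ^ 2) (A : Subgroup (PSU 4 F q)) {u : Fin 4 → F}
    (hu : hermForm 4 F q u u = 0) : RR hF u hu ≤ A ↔ PP (formB hF 4) (HA hF A) u := by
  constructor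
  · intro h l hl g hg
    have hl' : l + l ^ q = 0 := hl
    have h1 : g = (toIso hF (transv hF u hu l hl')).1 := by
      apply LinearEquiv.ext
      intro v
      rw [hg v, isTv_toIso hF hu hl' v]
    rw [h1, mem_HA, pi_toIso]
    exact h (mem_RR.2 ⟨l, hl', rfl⟩)
  · intro h x hx
    obtain ⟨μ, hμ, rfl⟩ := mem_RR.1 hx
    have h1 := h μ hμ _ (isTv_toIso hF hu hμ)
    rw [mem_HA, pi_toIso] at h1
    exact h1

theorem card_trz (hF : Fintype.card F = q ^ 2) : Nat.card {x : F // x + x ^ q = 0} = q := by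
  obtain ⟨c0, hc0, hc⟩ := exists_trace_zero_ne hF
  have hcq : c0 ^ q = -c0 := by linear_combination hc
  refine (Nat.card_congr ?_).trans (card_fixed hF)
  exact
    { toFun := fun x => ⟨c0⁻¹ * x.1, by
        have h1 : x.1 ^ q = -x.1 := by linear_combination x.2
        rw [mul_pow, inv_pow, hcq, h1, inv_neg, neg_mul_neg]⟩
      invFun := fun x => ⟨c0 * x.1, by rw [mul_pow, hcq, x.2]; ring⟩
      left_inv := fun x => Subtype.ext (mul_inv_cancel_left₀ hc0 _)
      right_inv := fun x => Subtype.ext (inv_mul_cancel_left₀ hc0 _) }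

/-- the transvections with centre `u` are determined by their parameter -/
theorem transv_inj (hF : Fintype.card F = q ^ 2) (hn : 3 ≤ n) {u : Fin n → F} (hu0 : u ≠ 0)
    (hu : hermForm n F q u u = 0) {μ ν : F} (hμ : μ + μ ^ q = 0) (hν : ν + ν ^ q = 0)
    (h : pr n F q (transv hF u hu μ hμ) = pr n F q (transv hF u hu ν hν)) : μ = ν := by
  have h3 := siegel_pr_inj hF hn _ _ h
  obtain ⟨f, -, huf, hfu⟩ := exists_partner hF hu0 hu
  have h4 : act (transv hF u hu μ hμ) f = act (transv hF u hu ν hν) f := congrArg (fun g => act g f) h3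
  rw [act_transv, act_transv, hfu, add_right_inj, mul_one, mul_one] at h4
  have h5 : (μ - ν) • u = 0 := by rw [sub_smul, h4, sub_self]
  exact sub_eq_zero.1 ((smul_eq_zero.1 h5).resolve_right hu0)

theorem card_RR (hF : Fintype.card F = q ^ 2) (hn : 3 ≤ n) {u : Fin n → F} (hu0 : u ≠ 0)
    (hu : hermForm n F q u u = 0) : q ≤ Nat.card (RR hF u hu) := by
  have hfin : Finite (PSU n F q) := Quotient.finite _
  refine (card_trz hF).symm.le.trans ?_
  refine Nat.card_le_card_of_injective (fun x : {x : F // x + x ^ q = 0} =>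
    (⟨pr n F q (transv hF u hu x.1 x.2), mem_RR.2 ⟨x.1, x.2, rfl⟩⟩ : RR hF u hu)) ?_
  intro x y hxy
  exact Subtype.ext (transv_inj hF hn hu0 hu x.2 y.2 (congrArg Subtype.val hxy))

theorem RR_ne_bot (hF : Fintype.card F = q ^ 2) (hn : 3 ≤ n) {u : Fin n → F} (hu0 : u ≠ 0)
    (hu : hermForm n F q u u = 0) : RR hF u hu ≠ ⊥ := by
  intro h
  have h1 := card_RR hF hn hu0 hu
  rw [h, Subgroup.card_bot] at h1
  have h2 := two_le hF
  omega

/-- `g` normalises `RR u` when `u` is an eigenvector of `g` -/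
theorem norm_RR (hF : Fintype.card F = q ^ 2) {u : Fin n → F} (hu : hermForm n F q u u = 0) (g : SU n F q) {c : F}
    (hc : c ≠ 0) (hg : act g u = c • u) {x : PSU n F q} (hx : x ∈ RR hF u hu) :
    pr n F q g * x * (pr n F q g)⁻¹ ∈ RR hF u hu := by
  have hgu : hermForm n F q (act g u) (act g u) = 0 := by rw [herm_act]; exact hu
  have hcu : hermForm n F q (c • u) (c • u) = 0 := by rw [← hg]; exact hgu
  have h1 : RR hF (act g u) hgu = RR hF u hu := by
    rw [RR_congr hF hgu hcu hg, RR_le hF hu hc hcu]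
  rw [← h1, RR_conj hF hu g hgu]
  have h2 : (pr n F q g)⁻¹ * (pr n F q g * x * (pr n F q g)⁻¹) * pr n F q g = x := by group
  rw [h2]
  exact hx

/-- **no two distinct commuting involutions** -/
theorem nc_of (hF : Fintype.card F = q ^ 2) {A : Subgroup (PSU 4 F q)}
    (hno : ∀ s ∈ A, ∀ t ∈ A, orderOf s = 2 → orderOf t = 2 → s * t = t * s → s = t) : NC (HA hF A) := by
  have key : ∀ x : SIso (formB hF 4), ¬ Scal x.1 → Scal (x.1 * x.1) → orderOf (Cfsg.Agent.H450.UF.pi hF 4 x) = 2 := by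
    intro x h1 h2
    apply orderOf_eq_prime
    · rw [pow_two, ← map_mul, pi_eq_one_iff hF (by norm_num)]
      exact h2
    · rw [Ne, pi_eq_one_iff hF (by norm_num)]
      exact h1
  rintro _ ⟨x, hxA, rfl⟩ _ ⟨y, hyA, rfl⟩ hx hy hx2 hy2 hxy
  have hxy' : x * y = y * x := Subtype.ext hxy
  have h1 := hno _ hxA _ hyA (key x hx hx2) (key y hy hy2) (by rw [← map_mul, hxy', map_mul])
  have h2 : Cfsg.Agent.H450.UF.pi hF 4 (x * y⁻¹) = 1 := by rw [map_mul, map_inv, h1, mul_inv_cancel]
  obtain ⟨a, ha⟩ := (pi_eq_one_iff hF (by norm_num) _).1 h2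
  refine ⟨a, fun v => ?_⟩
  have h3 := ha (y.1 v)
  have h4 : (x * y⁻¹).1 (y.1 v) = x.1 v := by
    have h5 : (x * y⁻¹) * y = x := inv_mul_cancel_right _ _
    exact LinearEquiv.congr_fun (congrArg Subtype.val h5) v
  rw [h4] at h3
  exact h3

end Cfsg.Agent.H974.IFU
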