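import Cfsg.Agent.H974.IFU.LR

/-!
# S5719, `PSU_4(q)`, `q` odd: centres of transvections and the decomposition `V = P + P^⊥` (helper974)

`t = -1` on the nondegenerate plane `P`, `t = 1` on `P^⊥`, `t ∈ H`, no two distinct commuting involutions (`NC`).
* `not_mixed` : a centre `c = c₁ + c₂` of `H` has isotropic components;
* `pp_snd` : then `c₂` is a centre of `H` (all transvections with centre in `P` are in `H`);
* `orth_snd` : two centres of `H` in `P^⊥` are orthogonal.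
-/

set_option autoImplicit false
set_option linter.unusedSectionVars false

namespace Cfsg.Agent.H974.IFU

open Module Subgroup Cfsg Cfsg.Agent.H91.U Cfsg.Agent.H450.UF Cfsg.Agent.H450.Bs Cfsg.Agent.H838.IF

section

variable {F V : Type*} [Field F] [AddCommGroup V] [Module F V]

/-- no two distinct commuting involutions modulo scalars -/
def NC (H : Subgroup (V ≃ₗ[F] V)) : Prop :=
  ∀ s ∈ H, ∀ t ∈ H, ¬ Scal s → ¬ Scal t → Scal (s * s) → Scal (t * t) → s * t = t * s → ∃ a : F, ∀ v, s v = a • t v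

variable [Finite F] [FiniteDimensional F V] {σ : F →+* F} {B : V →ₛₗ[σ] V →ₗ[F] F} {H : Subgroup (V ≃ₗ[F] V)}

theorem B_left (hB : HForm B) (x y z : V) : B (x + y) z = B x z + B y z := by
  rw [map_add, LinearMap.add_apply]

/-- a plane is spanned by two isotropic vectors which are not orthogonal -/
theorem span_two (hB : HForm B) {W : Submodule F V} (hW : finrank F W = 2) {d d' : V} (hd : d ∈ W) (hd' : d' ∈ W)
    (h0 : B d d = 0) (h0' : B d' d' = 0) (hne : B d d' ≠ 0) {y : V} (hy : y ∈ W) : ∃ a b : F, y = a • d + b • d' := by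
  have hne' : B d' d ≠ 0 := fun e => hne (hB.swap_zero e)
  let w : Fin 2 → W := ![⟨d, hd⟩, ⟨d', hd'⟩]
  have hli : LinearIndependent F w := by
    rw [LinearIndependent.pair_iff]
    intro a b hab
    have h1 : a • d + b • d' = 0 := congrArg Subtype.val hab
    have h2 : B d (a • d + b • d') = 0 := by rw [h1, map_zero]
    have h3 : B d' (a • d + b • d') = 0 := by rw [h1, map_zero]
    rw [map_add, smul_right, smul_right, h0, mul_zero, zero_add] at h2
    rw [map_add, smul_right, smul_right, h0', mul_zero, add_zero] at h3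
    exact ⟨(mul_eq_zero.1 h3).resolve_right hne', (mul_eq_zero.1 h2).resolve_right hne⟩
  have hsp : Submodule.span F (Set.range w) = ⊤ := by
    apply Submodule.eq_top_of_finrank_eq
    rw [finrank_span_eq_card hli, Fintype.card_fin, hW]
  have h1 : (⟨y, hy⟩ : W) ∈ Submodule.span F (Set.range w) := by rw [hsp]; trivial
  rw [Submodule.mem_span_range_iff_exists_fun] at h1
  obtain ⟨f, hf⟩ := h1
  refine ⟨f 0, f 1, ?_⟩
  have h2 := congrArg Subtype.val hf
  rw [Fin.sum_univ_two] at h2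
  exact h2.symm

variable {P : Submodule F V} {t : V ≃ₗ[F] V}

theorem decomp (hB : HForm B) (hP : NP B P) (v : V) : ∃ x ∈ P, ∃ y ∈ pp B P, v = x + y := by
  obtain ⟨a, ha, b, hb, rfl⟩ := exists_decomp hB hP.nd v
  exact ⟨a, ha, b, fun z hz => hB.swap_zero (hb z hz), rfl⟩

theorem tt (hB : HForm B) (hP : NP B P) (ht : Neg B t P) (v : V) : t (t v) = v := by
  obtain ⟨x, hx, y, hy, rfl⟩ := decomp hB hP v
  rw [map_add, ht.1 x hx, ht.2 y hy, map_add, map_neg, ht.1 x hx, ht.2 y hy, neg_neg]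

theorem self_add_self (h2 : (2 : F) ≠ 0) {v : V} (h : v = -v) : v = 0 := by
  have h1 : (2 : F) • v = 0 := by
    rw [two_smul]
    nth_rewrite 1 [h]
    exact neg_add_cancel v
  exact (smul_eq_zero.1 h1).resolve_left h2

/-- **the components of a centre are isotropic** -/
theorem not_mixed (hB : HForm B) (h2 : (2 : F) ≠ 0) (hH : H ≤ SIso B) (hP : NP B P) (ht : Neg B t P) (htH : t ∈ H)
    (hNC : NC H) {c₁ c₂ : V} (h1 : c₁ ∈ P) (h1' : c₂ ∈ pp B P) (hc : B (c₁ + c₂) (c₁ + c₂) = 0)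
    (hp : PP B H (c₁ + c₂)) : B c₁ c₁ = 0 := by
  by_contra hne
  have h21 : B c₂ c₁ = 0 := h1' c₁ h1
  have h12 : B c₁ c₂ = 0 := hB.swap_zero h21
  have hsum : B c₁ c₁ + B c₂ c₂ = 0 := by
    rw [B_left hB, map_add, map_add, h12, h21] at hc
    linear_combination hc
  have htc : t (c₁ + c₂) = -c₁ + c₂ := by rw [map_add, ht.1 c₁ h1, ht.2 c₂ h1']
  have hiso : ∀ x y, B (t x) (t y) = B x y := (hH htH).2
  have hp' : PP B H (-c₁ + c₂) := by
    have := hp.map htH hiso
    rwa [htc] at this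
  have hc' : B (-c₁ + c₂) (-c₁ + c₂) = 0 := by
    rw [← htc, hiso]
    exact hc
  have hcc : B (c₁ + c₂) (-c₁ + c₂) ≠ 0 := by
    rw [B_left hB, map_add, map_add, map_neg, map_neg, h12, h21]
    intro h
    apply hne
    have : (2 : F) * B c₁ c₁ = 0 := by linear_combination hsum - h
    exact (mul_eq_zero.1 this).resolve_left h2
  obtain ⟨l, hl0, hl⟩ := exists_trz hB
  obtain ⟨g, hg⟩ := exists_tv hc l
  obtain ⟨g', hg'⟩ := exists_tv hc' l
  obtain ⟨j, hj, hj1, hj2, hj3, hj4⟩ := exists_j hB h2 hc hc' hcc hl0 hl0 hg hg' (hp l hl g hg) (hp' l hl g' hg')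
  -- `j² = -1` on `⟨c₁, c₂⟩`
  have hs1 : j (j c₁) = -c₁ := by
    have e1 : c₁ = (2 : F)⁻¹ • (c₁ + c₂) + (-(2 : F)⁻¹) • (-c₁ + c₂) := by
      have e2 : (2 : F)⁻¹ • (c₁ + c₂) + (-(2 : F)⁻¹) • (-c₁ + c₂) = ((2 : F)⁻¹ * 2) • c₁ := by module
      rw [e2, inv_mul_cancel₀ h2, one_smul]
    have := hj1 (2 : F)⁻¹ (-(2 : F)⁻¹)
    rwa [← e1] at this
  have hs2 : j (j c₂) = -c₂ := by
    have e1 : c₂ = (2 : F)⁻¹ • (c₁ + c₂) + (2 : F)⁻¹ • (-c₁ + c₂) := by
      have e2 : (2 : F)⁻¹ • (c₁ + c₂) + (2 : F)⁻¹ • (-c₁ + c₂) = ((2 : F)⁻¹ * 2) • c₂ := by module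
      rw [e2, inv_mul_cancel₀ h2, one_smul]
    have := hj1 (2 : F)⁻¹ (2 : F)⁻¹
    rwa [← e1] at this
  have hs3 : ∀ u, B c₁ u = 0 → B c₂ u = 0 → j (j u) = u := by
    intro u hu hu'
    have e1 : j u = u := hj4 u (by rw [B_left hB, hu, hu', add_zero]) (by
      rw [B_left hB, map_neg, LinearMap.neg_apply, hu, hu', neg_zero, add_zero])
    rw [e1, e1]
  have h22 : B c₂ c₂ ≠ 0 := by
    intro h
    rw [h, add_zero] at hsum
    exact hne hsum
  have hc10 : c₁ ≠ 0 := by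
    rintro rfl
    rw [map_zero] at hne
    exact hne rfl
  have hc20 : c₂ ≠ 0 := by
    rintro rfl
    rw [map_zero] at h22
    exact h22 rfl
  -- every vector is the sum of a multiple of `c₁`, a multiple of `c₂` and an orthogonal vector
  have hdec : ∀ v, ∃ a b : F, ∃ u, B c₁ u = 0 ∧ B c₂ u = 0 ∧ v = a • c₁ + b • c₂ + u := by
    intro v
    refine ⟨B c₁ v / B c₁ c₁, B c₂ v / B c₂ c₂, v - (B c₁ v / B c₁ c₁) • c₁ - (B c₂ v / B c₂ c₂) • c₂, ?_, ?_, by module⟩
    · rw [map_sub, map_sub, smul_right, smul_right, h12, div_mul_cancel₀ _ hne, mul_zero, sub_self, sub_zero]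
    · rw [map_sub, map_sub, smul_right, smul_right, h21, div_mul_cancel₀ _ h22, mul_zero, sub_zero, sub_self]
  have hs : ∀ a b : F, ∀ u, B c₁ u = 0 → B c₂ u = 0 → (j * j) (a • c₁ + b • c₂ + u) = -(a • c₁) - b • c₂ + u := by
    intro a b u hu hu'
    rw [LinearEquiv.mul_apply, map_add, map_add, map_add, map_add, map_smul, map_smul, map_smul, map_smul, hs1, hs2,
      hs3 u hu hu']
    module
  -- a vector of `P` orthogonal to `c₁`
  obtain ⟨u, huP, hu0, hu⟩ : ∃ u ∈ P, u ≠ 0 ∧ B c₁ u = 0 := by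
    by_contra hcon
    push Not at hcon
    let φ : P →ₗ[F] F := (B c₁).comp P.subtype
    have hinj : LinearMap.ker φ = ⊥ := by
      rw [LinearMap.ker_eq_bot']
      intro x hx
      by_contra hx0
      exact hcon x x.2 (fun e => hx0 (Subtype.ext e)) hx
    have h3 := LinearMap.finrank_range_add_finrank_ker φ
    rw [hinj, finrank_bot, hP.dim] at h3
    have h4 : finrank F (LinearMap.range φ) ≤ 1 := (Submodule.finrank_le _).trans (by rw [finrank_self])
    omega
  have hu2 : B c₂ u = 0 := h1' u huP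
  have hnu : ∀ {s : V ≃ₗ[F] V}, s u = u → s c₁ = -c₁ → ¬ Scal s := by
    rintro s hs1 hs2 ⟨a, ha⟩
    have e1 : u = a • u := by rw [← ha, hs1]
    have e2 : a • c₁ = -c₁ := by rw [← ha, hs2]
    have e3 : a = 1 := by
      have : (a - 1) • u = 0 := by rw [sub_smul, one_smul, ← e1, sub_self]
      exact sub_eq_zero.1 ((smul_eq_zero.1 this).resolve_right hu0)
    rw [e3, one_smul] at e2
    exact hc10 (self_add_self h2 e2)
  obtain ⟨a, ha⟩ := hNC (j * j) (mul_mem hj hj) t htH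
    (hnu (by
      have := hs 0 0 u hu hu2
      rwa [zero_smul, zero_smul, zero_add, zero_add, neg_zero, zero_sub, neg_zero, zero_add] at this) (by
      rw [LinearEquiv.mul_apply, hs1]))
    (by
      rintro ⟨a, ha⟩
      have e1 : a • c₂ = c₂ := by rw [← ha, ht.2 c₂ h1']
      have e2 : a • c₁ = -c₁ := by rw [← ha, ht.1 c₁ h1]
      have e3 : a = 1 := by
        have : (a - 1) • c₂ = 0 := by rw [sub_smul, one_smul, e1, sub_self]
        exact sub_eq_zero.1 ((smul_eq_zero.1 this).resolve_right hc20)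
      rw [e3, one_smul] at e2
      exact hc10 (self_add_self h2 e2))
    ⟨1, fun v => by
      obtain ⟨a, b, u, hu, hu', rfl⟩ := hdec v
      rw [LinearEquiv.mul_apply, hs a b u hu hu']
      have := hs (-a) (-b) u hu hu'
      rw [neg_smul, neg_smul] at this
      rw [sub_eq_add_neg, this]
      module⟩
    ⟨1, fun v => by rw [LinearEquiv.mul_apply, tt hB hP ht, one_smul]⟩
    (by
      apply LinearEquiv.ext
      intro v
      obtain ⟨a, b, u, hu, hu', rfl⟩ := hdec v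
      have htu : B c₁ (t u) = 0 ∧ B c₂ (t u) = 0 := by
        constructor
        · rw [← hiso, tt hB hP ht, ht.1 c₁ h1, map_neg, LinearMap.neg_apply, hu, neg_zero]
        · rw [← hiso, tt hB hP ht, ht.2 c₂ h1', hu']
      have e1 : t (a • c₁ + b • c₂ + u) = (-a) • c₁ + b • c₂ + t u := by
        rw [map_add, map_add, map_smul, map_smul, ht.1 c₁ h1, ht.2 c₂ h1']
        module
      rw [LinearEquiv.mul_apply (j * j) t, LinearEquiv.mul_apply t (j * j), e1, hs (-a) b (t u) htu.1 htu.2,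
        hs a b u hu hu']
      rw [map_add, map_sub, map_neg, map_smul, map_smul, ht.1 c₁ h1, ht.2 c₂ h1']
      module)
  -- the contradiction
  have e1 : (j * j) c₁ = -c₁ := by rw [LinearEquiv.mul_apply, hs1]
  have e2 : (j * j) c₂ = -c₂ := by rw [LinearEquiv.mul_apply, hs2]
  rw [ha, ht.1 c₁ h1, smul_neg, neg_inj] at e1
  rw [ha, ht.2 c₂ h1'] at e2
  have e3 : a = 1 := by
    have : (a - 1) • c₁ = 0 := by rw [sub_smul, one_smul, e1, sub_self]
    exact sub_eq_zero.1 ((smul_eq_zero.1 this).resolve_right hc10)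
  rw [e3, one_smul] at e2
  exact hc20 (self_add_self h2 e2)

/-- **the second component of a centre is a centre** -/
theorem pp_snd (hB : HForm B) (h2 : (2 : F) ≠ 0) (hH : H ≤ SIso B) (ht : Neg B t P) (htH : t ∈ H)
    (hO : On B H P) {c₁ c₂ : V} (h1 : c₁ ∈ P) (h1' : c₂ ∈ pp B P) (h11 : B c₁ c₁ = 0) (h22 : B c₂ c₂ = 0)
    (hp : PP B H (c₁ + c₂)) : PP B H c₂ := by
  intro l hl g hg
  have h21 : B c₂ c₁ = 0 := h1' c₁ h1
  have h12 : B c₁ c₂ = 0 := hB.swap_zero h21
  have hiso : ∀ x y, B (t x) (t y) = B x y := (hH htH).2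
  have htc : t (c₁ + c₂) = -c₁ + c₂ := by rw [map_add, ht.1 c₁ h1, ht.2 c₂ h1']
  have hp' : PP B H (-c₁ + c₂) := by
    have := hp.map htH hiso
    rwa [htc] at this
  have hc : B (c₁ + c₂) (c₁ + c₂) = 0 := by
    rw [B_left hB, map_add, map_add, h12, h21, h11, h22]
    ring
  have hc' : B (-c₁ + c₂) (-c₁ + c₂) = 0 := by
    rw [← htc, hiso]
    exact hc
  have hm : (2 : F)⁻¹ * l + σ ((2 : F)⁻¹ * l) = 0 := by
    have e : σ (2 : F)⁻¹ = (2 : F)⁻¹ := by rw [map_inv₀, map_ofNat]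
    rw [map_mul, e, ← mul_add, hl, mul_zero]
  obtain ⟨g1, hg1⟩ := exists_tv hc ((2 : F)⁻¹ * l)
  obtain ⟨g2, hg2⟩ := exists_tv hc' ((2 : F)⁻¹ * l)
  have hl' : -l + σ (-l) = 0 := by rw [map_neg]; linear_combination -hl
  obtain ⟨g3, hg3⟩ := exists_tv h11 (-l)
  have hg3H : g3 ∈ H := by
    by_cases h0 : c₁ = 0
    · have : g3 = 1 := by
        apply LinearEquiv.ext
        intro v
        rw [hg3 v, h0, smul_zero, add_zero]
        rfl
      rw [this]
      exact one_mem H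
    · exact hO c₁ h1 h0 h11 (-l) hl' g3 hg3
  have hprod : g = g1 * g2 * g3 := by
    apply LinearEquiv.ext
    intro v
    rw [LinearEquiv.mul_apply, LinearEquiv.mul_apply, hg3 v, hg2, hg1, hg v]
    have e1 : B (-c₁ + c₂) (v + (-l * B c₁ v) • c₁) = -B c₁ v + B c₂ v := by
      rw [B_left hB, map_neg, LinearMap.neg_apply, map_add, map_add, smul_right, smul_right, h11, h21]
      ring
    rw [e1]
    have e2 : B (c₁ + c₂) (v + (-l * B c₁ v) • c₁ + ((2 : F)⁻¹ * l * (-B c₁ v + B c₂ v)) • (-c₁ + c₂)) =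
        B c₁ v + B c₂ v := by
      rw [B_left hB]
      simp only [map_add, smul_right, map_neg, h11, h12, h21, h22]
      ring
    rw [e2]
    have e3 : v + (-l * B c₁ v) • c₁ + ((2 : F)⁻¹ * l * (-B c₁ v + B c₂ v)) • (-c₁ + c₂) +
        ((2 : F)⁻¹ * l * (B c₁ v + B c₂ v)) • (c₁ + c₂) =
        v + (((2 : F)⁻¹ * 2 - 1) * (l * B c₁ v)) • c₁ + (((2 : F)⁻¹ * 2) * (l * B c₂ v)) • c₂ := by module
    rw [e3, inv_mul_cancel₀ h2, sub_self, zero_mul, zero_smul, add_zero, one_mul]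
  rw [hprod]
  exact mul_mem (mul_mem (hp _ hm g1 hg1) (hp' _ hm g2 hg2)) hg3H

/-- **two centres in `P^⊥` are orthogonal** -/
theorem orth_snd (hB : HForm B) (h2 : (2 : F) ≠ 0) (hV : finrank F V = 4) (hP : NP B P) (ht : Neg B t P)
    (htH : t ∈ H) (hNC : NC H) (hO : On B H P) {d d' : V} (h1 : d ∈ pp B P) (h1' : d' ∈ pp B P) (hd : B d d = 0)
    (hd' : B d' d' = 0) {l l' : F} (hl : l ≠ 0) (hl' : l' ≠ 0) {g g' : V ≃ₗ[F] V} (hg : IsTv B d l g)
    (hg' : IsTv B d' l' g') (hgH : g ∈ H) (hgH' : g' ∈ H) : B d d' = 0 := by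
  by_contra hne
  obtain ⟨j, hj, hj1, hj2, hj3, hj4⟩ := exists_j hB h2 hd hd' hne hl hl' hg hg' hgH hgH'
  obtain ⟨e, he, f, hf, hee, hff, hef⟩ := Cfsg.Agent.H450.Bs.exists_hyp hB hP.nd (by rw [hP.dim])
  have hef0 : B e f ≠ 0 := by rw [hef]; exact one_ne_zero
  have he0 : e ≠ 0 := by
    rintro rfl
    rw [map_zero] at hef0
    exact hef0 rfl
  have hf0 : f ≠ 0 := by
    rintro rfl
    rw [map_zero] at hef0
    exact hef0 rfl
  obtain ⟨m, hm0, hm⟩ := exists_trz hB
  obtain ⟨x, hx⟩ := exists_tv hee m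
  obtain ⟨x', hx'⟩ := exists_tv hff m
  obtain ⟨i, hi, hi1, hi2, hi3, hi4⟩ := exists_j hB h2 hee hff hef0 hm0 hm0 hx hx' (hO e he he0 hee m hm x hx)
    (hO f hf hf0 hff m hm x' hx')
  have hdim : finrank F (pp B P) = 2 := by
    have := finrank_pp hB P
    rw [hP.dim, hV] at this
    omega
  have hPs : ∀ {y : V}, y ∈ P → ∃ a b : F, y = a • e + b • f := fun {y} hy => span_two hB hP.dim he hf hee hff hef0 hy
  have hQs : ∀ {y : V}, y ∈ pp B P → ∃ a b : F, y = a • d + b • d' :=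
    fun {y} hy => span_two hB hdim h1 h1' hd hd' hne hy
  have hiP : ∀ y ∈ P, i y ∈ P ∧ i (i y) = -y := by
    intro y hy
    obtain ⟨a, b, rfl⟩ := hPs hy
    refine ⟨?_, hi1 a b⟩
    obtain ⟨a', b', h⟩ := hi2 a b
    rw [h]
    exact P.add_mem (P.smul_mem _ he) (P.smul_mem _ hf)
  have hjQ : ∀ y ∈ pp B P, j y ∈ pp B P ∧ j (j y) = -y := by
    intro y hy
    obtain ⟨a, b, rfl⟩ := hQs hy
    refine ⟨?_, hj1 a b⟩
    obtain ⟨a', b', h⟩ := hj2 a b
    rw [h]
    exact (pp B P).add_mem ((pp B P).smul_mem _ h1) ((pp B P).smul_mem _ h1')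
  have hiQ : ∀ y ∈ pp B P, i y = y := fun y hy => hi4 y (hB.swap_zero (hy e he)) (hB.swap_zero (hy f hf))
  have hjP : ∀ y ∈ P, j y = y := fun y hy => hj4 y (h1 y hy) (h1' y hy)
  have hs1 : ∀ y ∈ P, (i * j) y = i y := fun y hy => by rw [LinearEquiv.mul_apply, hjP y hy]
  have hs2 : ∀ y ∈ pp B P, (i * j) y = j y := fun y hy => by rw [LinearEquiv.mul_apply, hiQ _ (hjQ y hy).1]
  have hd0 : d ≠ 0 := by
    rintro rfl
    rw [map_zero] at hne
    exact hne rfl
  obtain ⟨a, ha⟩ := hNC (i * j) (mul_mem hi hj) t htH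
    (by
      rintro ⟨a, ha⟩
      exact hi3 ⟨a, by rw [← hs1 e he, ha], by rw [← hs1 f hf, ha]⟩)
    (by
      rintro ⟨a, ha⟩
      have e1 : a • d = d := by rw [← ha, ht.2 d h1]
      have e2 : a • e = -e := by rw [← ha, ht.1 e he]
      have e3 : a = 1 := by
        have : (a - 1) • d = 0 := by rw [sub_smul, one_smul, e1, sub_self]
        exact sub_eq_zero.1 ((smul_eq_zero.1 this).resolve_right hd0)
      rw [e3, one_smul] at e2
      exact he0 (self_add_self h2 e2))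
    ⟨-1, fun v => by
      obtain ⟨y, hy, z, hz, rfl⟩ := decomp hB hP v
      rw [LinearEquiv.mul_apply, map_add, hs1 y hy, hs2 z hz, map_add, hs1 _ (hiP y hy).1, hs2 _ (hjQ z hz).1,
        (hiP y hy).2, (hjQ z hz).2]
      module⟩
    ⟨1, fun v => by rw [LinearEquiv.mul_apply, tt hB hP ht, one_smul]⟩
    (by
      apply LinearEquiv.ext
      intro v
      obtain ⟨y, hy, z, hz, rfl⟩ := decomp hB hP v
      rw [LinearEquiv.mul_apply (i * j) t, LinearEquiv.mul_apply t (i * j), map_add t, ht.1 y hy, ht.2 z hz, map_add,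
        map_add, map_neg, hs1 y hy, hs2 z hz, map_add, ht.1 _ (hiP y hy).1, ht.2 _ (hjQ z hz).1])
  apply hi3
  refine ⟨-a, ?_, ?_⟩
  · rw [← hs1 e he, ha, ht.1 e he]
    module
  · rw [← hs1 f hf, ha, ht.1 f hf]
    module

end

end Cfsg.Agent.H974.IFU
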