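import Cfsg.Agent.H838.IF.Defs
import Cfsg.Agent.H411.L4.LR

/-!
# S5719, `PSU_4(q)`, `q` odd: two transvections with non-orthogonal centres (helper974)

* `R` : the action of `SL_2` on a hyperbolic plane;
* `exists_j` : two transvections of `H` with non-orthogonal centres `c, c'` give `j ∈ H`, `j² = -1` on `⟨c, c'⟩`, `j = 1`
  on the orthogonal space;
* `not_mixed`, `pp_snd` : the components of the centres of `H` with respect to `P ⊕ P^⊥`.
-/

set_option autoImplicit false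
set_option linter.unusedSectionVars false

namespace Cfsg.Agent.H974.IFU

open Module Subgroup Cfsg Cfsg.Agent.H91.U Cfsg.Agent.H450.UF Cfsg.Agent.H450.Bs Cfsg.Agent.H838.IF
open scoped Matrix

section

variable {F V : Type*} [Field F] [AddCommGroup V] [Module F V]

/-- the action of `SL_2` on the plane `⟨c, c'⟩` with the coordinates `α, β` -/
def R (α β : V →ₗ[F] F) (c c' : V) (y : Matrix.SpecialLinearGroup (Fin 2) F) (v : V) : V :=
  v + ((y.1 0 0 - 1) * α v + y.1 0 1 * β v) • c + (y.1 1 0 * α v + (y.1 1 1 - 1) * β v) • c'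

variable {α β : V →ₗ[F] F} {c c' : V}

theorem R_apply (y : Matrix.SpecialLinearGroup (Fin 2) F) (v : V) : R α β c c' y v =
    v + ((y.1 0 0 - 1) * α v + y.1 0 1 * β v) • c + (y.1 1 0 * α v + (y.1 1 1 - 1) * β v) • c' := rfl

theorem R_one (v : V) : R α β c c' 1 v = v := by
  unfold R
  simp [Matrix.SpecialLinearGroup.coe_one]

theorem alpha_R (h1 : α c = 1) (h3 : α c' = 0)
    (z : Matrix.SpecialLinearGroup (Fin 2) F) (v : V) :
    α (R α β c c' z v) = z.1 0 0 * α v + z.1 0 1 * β v := by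
  unfold R
  rw [map_add, map_add, map_smul, map_smul, h1, h3, smul_eq_mul, smul_eq_mul]
  ring

theorem beta_R (h2 : β c = 0) (h4 : β c' = 1)
    (z : Matrix.SpecialLinearGroup (Fin 2) F) (v : V) :
    β (R α β c c' z v) = z.1 1 0 * α v + z.1 1 1 * β v := by
  unfold R
  rw [map_add, map_add, map_smul, map_smul, h2, h4, smul_eq_mul, smul_eq_mul]
  ring

theorem R_mul (h1 : α c = 1) (h2 : β c = 0) (h3 : α c' = 0) (h4 : β c' = 1)
    (y z : Matrix.SpecialLinearGroup (Fin 2) F) (v : V) :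
    R α β c c' y (R α β c c' z v) = R α β c c' (y * z) v := by
  rw [R_apply y (R α β c c' z v), alpha_R h1 h3, beta_R h2 h4, R_apply z v, R_apply (y * z) v]
  have e : ∀ i j, (y * z).1 i j = y.1 i 0 * z.1 0 j + y.1 i 1 * z.1 1 j := by
    intro i j
    change (y.1 * z.1) i j = _
    rw [Matrix.mul_apply, Fin.sum_univ_two]
  rw [e, e, e, e]
  have k1 : ((y.1 0 0 * z.1 0 0 + y.1 0 1 * z.1 1 0 - 1) * α v + (y.1 0 0 * z.1 0 1 + y.1 0 1 * z.1 1 1) * β v) • c =
      ((z.1 0 0 - 1) * α v + z.1 0 1 * β v) • c +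
        ((y.1 0 0 - 1) * (z.1 0 0 * α v + z.1 0 1 * β v) + y.1 0 1 * (z.1 1 0 * α v + z.1 1 1 * β v)) • c := by
    rw [← add_smul]
    congr 1
    ring
  have k2 : ((y.1 1 0 * z.1 0 0 + y.1 1 1 * z.1 1 0) * α v + (y.1 1 0 * z.1 0 1 + y.1 1 1 * z.1 1 1 - 1) * β v) • c' =
      (z.1 1 0 * α v + (z.1 1 1 - 1) * β v) • c' +
        (y.1 1 0 * (z.1 0 0 * α v + z.1 0 1 * β v) + (y.1 1 1 - 1) * (z.1 1 0 * α v + z.1 1 1 * β v)) • c' := by
    rw [← add_smul]
    congr 1
    ring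
  rw [k1, k2]
  abel

variable (α β c c') in
/-- the elements of `SL_2` induced by `H` -/
def HR (H : Subgroup (V ≃ₗ[F] V)) (h1 : α c = 1) (h2 : β c = 0) (h3 : α c' = 0) (h4 : β c' = 1) :
    Subgroup (Matrix.SpecialLinearGroup (Fin 2) F) where
  carrier := {y | ∃ h ∈ H, ∀ v, h v = R α β c c' y v}
  mul_mem' := by
    rintro y z ⟨h, hh, hy⟩ ⟨k, hk, hz⟩
    refine ⟨h * k, mul_mem hh hk, fun v => ?_⟩
    rw [LinearEquiv.mul_apply, hy, hz, R_mul h1 h2 h3 h4]
  one_mem' := ⟨1, one_mem _, fun v => by rw [R_one]; rfl⟩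
  inv_mem' := by
    rintro y ⟨h, hh, hy⟩
    refine ⟨h⁻¹, inv_mem hh, fun v => ?_⟩
    change h.symm v = _
    rw [LinearEquiv.symm_apply_eq, hy, R_mul h1 h2 h3 h4, mul_inv_cancel, R_one]

end

section

variable {F V : Type*} [Field F] [Finite F] [AddCommGroup V] [Module F V] {σ : F →+* F}
  {B : V →ₛₗ[σ] V →ₗ[F] F} {H : Subgroup (V ≃ₗ[F] V)}

/-- **two transvections with non-orthogonal centres** -/
theorem exists_j (hB : HForm B) (h2 : (2 : F) ≠ 0) {c c' : V} (hc : B c c = 0) (hc' : B c' c' = 0) (hcc : B c c' ≠ 0)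
    {l l' : F} (hl : l ≠ 0) (hl' : l' ≠ 0) {g g' : V ≃ₗ[F] V} (hg : IsTv B c l g) (hg' : IsTv B c' l' g')
    (hgH : g ∈ H) (hgH' : g' ∈ H) :
    ∃ j ∈ H, (∀ a b : F, j (j (a • c + b • c')) = -(a • c + b • c')) ∧
      (∀ a b : F, ∃ a' b' : F, j (a • c + b • c') = a' • c + b' • c') ∧
      (¬ ∃ m : F, j c = m • c ∧ j c' = m • c') ∧ ∀ u, B c u = 0 → B c' u = 0 → j u = u := by
  have hcc' : B c' c ≠ 0 := fun e => hcc (hB.swap_zero e)
  let α : V →ₗ[F] F := (B c' c)⁻¹ • B c'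
  let β : V →ₗ[F] F := (B c c')⁻¹ • B c
  have hα : ∀ v, α v = (B c' c)⁻¹ * B c' v := fun v => rfl
  have hβ : ∀ v, β v = (B c c')⁻¹ * B c v := fun v => rfl
  have e1 : α c = 1 := by rw [hα, inv_mul_cancel₀ hcc']
  have e2 : β c = 0 := by rw [hβ, hc, mul_zero]
  have e3 : α c' = 0 := by rw [hα, hc', mul_zero]
  have e4 : β c' = 1 := by rw [hβ, inv_mul_cancel₀ hcc]
  let x : Matrix.SpecialLinearGroup (Fin 2) F := ⟨!![1, l * B c c'; 0, 1], by simp [Matrix.det_fin_two]⟩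
  let x' : Matrix.SpecialLinearGroup (Fin 2) F := ⟨!![1, 0; l' * B c' c, 1], by simp [Matrix.det_fin_two]⟩
  have hx : x ∈ HR α β c c' H e1 e2 e3 e4 := by
    refine ⟨g, hgH, fun v => ?_⟩
    rw [hg v]
    have k1 : R α β c c' x v = v + ((1 - 1) * α v + (l * B c c') * β v) • c + (0 * α v + (1 - 1) * β v) • c' := rfl
    rw [k1, hβ]
    have k2 : ((1 : F) - 1) * α v + l * B c c' * ((B c c')⁻¹ * B c v) = l * B c v := by
      rw [mul_assoc l, mul_inv_cancel_left₀ hcc]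
      ring
    have k3 : (0 : F) * α v + (1 - 1) * ((B c c')⁻¹ * B c v) = 0 := by ring
    rw [k2, k3, zero_smul, add_zero]
  have hx' : x' ∈ HR α β c c' H e1 e2 e3 e4 := by
    refine ⟨g', hgH', fun v => ?_⟩
    rw [hg' v]
    have k1 : R α β c c' x' v = v + ((1 - 1) * α v + 0 * β v) • c + ((l' * B c' c) * α v + (1 - 1) * β v) • c' := rfl
    rw [k1, hα]
    have k2 : ((1 : F) - 1) * ((B c' c)⁻¹ * B c' v) + 0 * β v = 0 := by ring
    have k3 : l' * B c' c * ((B c' c)⁻¹ * B c' v) + (1 - 1) * β v = l' * B c' v := by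
      rw [mul_assoc l', mul_inv_cancel_left₀ hcc']
      ring
    rw [k2, k3, zero_smul, add_zero]
  obtain ⟨y, ⟨j, hjH, hj⟩, hyy⟩ := Cfsg.Agent.H411.L4.exists_sq h2 (mul_ne_zero hl hcc) (mul_ne_zero hl' hcc')
    (HR α β c c' H e1 e2 e3 e4) hx hx' rfl rfl
  have hαl : ∀ a b : F, α (a • c + b • c') = a := by
    intro a b
    rw [map_add, map_smul, map_smul, e1, e3, smul_eq_mul, smul_eq_mul, mul_one, mul_zero, add_zero]
  have hβl : ∀ a b : F, β (a • c + b • c') = b := by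
    intro a b
    rw [map_add, map_smul, map_smul, e2, e4, smul_eq_mul, smul_eq_mul, mul_one, mul_zero, zero_add]
  have hjl : ∀ a b : F, j (a • c + b • c') = (y.1 0 0 * a + y.1 0 1 * b) • c + (y.1 1 0 * a + y.1 1 1 * b) • c' := by
    intro a b
    rw [hj, R_apply, hαl, hβl]
    module
  have hE : ∀ i k, y.1 i 0 * y.1 0 k + y.1 i 1 * y.1 1 k = (-1 : Matrix (Fin 2) (Fin 2) F) i k := by
    intro i k
    rw [← hyy, Matrix.mul_apply, Fin.sum_univ_two]
  have h00 := hE 0 0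
  have h01 := hE 0 1
  have h10 := hE 1 0
  have h11 := hE 1 1
  rw [Matrix.neg_apply, Matrix.one_apply_eq] at h00 h11
  rw [Matrix.neg_apply, Matrix.one_apply_ne (by decide), neg_zero] at h01 h10
  refine ⟨j, hjH, ?_, ?_, ?_, ?_⟩
  · intro a b
    rw [hjl, hjl]
    have k1 : y.1 0 0 * (y.1 0 0 * a + y.1 0 1 * b) + y.1 0 1 * (y.1 1 0 * a + y.1 1 1 * b) = -a := by
      linear_combination a * h00 + b * h01
    have k2 : y.1 1 0 * (y.1 0 0 * a + y.1 0 1 * b) + y.1 1 1 * (y.1 1 0 * a + y.1 1 1 * b) = -b := by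
      linear_combination a * h10 + b * h11
    rw [k1, k2]
    module
  · intro a b
    exact ⟨_, _, hjl a b⟩
  · rintro ⟨m, hm1, hm2⟩
    have k1 := hjl 1 0
    have k2 := hjl 0 1
    rw [one_smul, zero_smul, add_zero, hm1] at k1
    rw [one_smul, zero_smul, zero_add, hm2] at k2
    have k3 := congrArg α k1
    have k4 := congrArg β k1
    have k5 := congrArg α k2
    have k6 := congrArg β k2
    rw [hαl, map_smul, e1, smul_eq_mul, mul_one] at k3
    rw [hβl, map_smul, e2, smul_eq_mul, mul_zero] at k4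
    rw [hαl, map_smul, e3, smul_eq_mul, mul_zero] at k5
    rw [hβl, map_smul, e4, smul_eq_mul, mul_one] at k6
    have hdet := y.2
    rw [Matrix.det_fin_two] at hdet
    apply h2
    have k7 : y.1 0 0 = m := by linear_combination -k3
    have k8 : y.1 1 0 = 0 := by linear_combination -k4
    have k9 : y.1 0 1 = 0 := by linear_combination -k5
    have k10 : y.1 1 1 = m := by linear_combination -k6
    rw [k7, k8, k9, k10] at hdet
    rw [k7, k9] at h00
    linear_combination h00 - hdet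
  · intro u hu hu'
    rw [hj, R_apply, hα, hβ, hu, hu']
    simp

end

end Cfsg.Agent.H974.IFU
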