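import Cfsg.Agent.H974.IFU.Brg

/-!
# S5719, `PSU_4(q)`, `q` odd: W7, the rank one case (helper974)

* `false_of` : no two distinct commuting involutions, `t = -1` on `P`, `1` on `P^⊥`, all transvections with centre
  in `P` are in `A`;
* `rank_one` : the hypothesis `rank_one` of `H847.IF.killE_odd`.
-/

set_option autoImplicit false
set_option linter.unusedSectionVars false

namespace Cfsg.Agent.H974.IFU

open Module Subgroup Cfsg Cfsg.Agent.H91.U Cfsg.Agent.H450.UF Cfsg.Agent.H450.Bs Cfsg.Agent.H838.IF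
open Cfsg.Agent.H209.Fxy
open Cfsg.Agent.LieClassical.HermBasic Cfsg.Agent.LieClassical.HermSiegel Cfsg.Agent.LieClassical.SUBasic
open Cfsg.Agent.LieClassical.HermGen
open Cfsg.Agent.ClassicalGeometry.PSUAutSylow Cfsg.Agent.ClassicalGeometry.PSUAutBasic
open Cfsg.Agent.H77.Witt (formB formB_apply)
open Cfsg.Agent.H847.IF (HA mem_HA pi_eq_one_iff)
open Cfsg.Agent.H950 (isoNum)

variable {F : Type*} [Field F] [Fintype F] {q : ℕ}

/-- an isotropic vector in a nondegenerate plane has a partner -/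
theorem partner {V : Type*} [AddCommGroup V] [Module F V] [FiniteDimensional F V] {σ : F →+* F}
    {B : V →ₛₗ[σ] V →ₗ[F] F} (hB : HForm B) {P : Submodule F V} (hP : NP B P) {d : V} (hd : d ∈ P) (hd0 : d ≠ 0)
    (hdd : B d d = 0) : ∃ m ∈ P, B m m = 0 ∧ B d m ≠ 0 := by
  obtain ⟨y, hy, hey⟩ : ∃ y ∈ P, B d y ≠ 0 := by
    by_contra hcon
    push Not at hcon
    exact hd0 (hP.nd d hd hcon)
  have h1 : B d ((B d y)⁻¹ • y) = 1 := by rw [smul_right, inv_mul_cancel₀ hey]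
  obtain ⟨c, hc⟩ := exists_iso hB hdd h1
  refine ⟨_, P.add_mem (P.smul_mem _ hy) (P.smul_mem c hd), hc, ?_⟩
  rw [map_add, h1, smul_right, hdd, mul_zero, add_zero]
  exact one_ne_zero

theorem ne_zero_left {V : Type*} [AddCommGroup V] [Module F V] {σ : F →+* F} {B : V →ₛₗ[σ] V →ₗ[F] F} {x y : V}
    (h : B x y ≠ 0) : x ≠ 0 := by
  rintro rfl
  rw [map_zero] at h
  exact h rfl

theorem ne_zero_right {V : Type*} [AddCommGroup V] [Module F V] {σ : F →+* F} {B : V →ₛₗ[σ] V →ₗ[F] F} {x y : V}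
    (h : B x y ≠ 0) : y ≠ 0 := by
  rintro rfl
  rw [map_zero] at h
  exact h rfl

theorem numeric {q n : ℕ} (hq : 2 ≤ q) (h1 : n * (q ^ 2 - 1) ≤ (q ^ 4 - 1) * (q ^ 3 + 1)) (h2 : q ^ 6 < n) : False := by
  have e1 : 1 ≤ q ^ 2 := Nat.one_le_pow _ _ (by omega)
  have e2 : q ^ 4 - 1 = (q ^ 2 + 1) * (q ^ 2 - 1) := by
    have := Nat.sq_sub_sq (q ^ 2) 1
    rw [one_pow, ← pow_mul] at this
    exact this
  rw [e2, mul_right_comm] at h1
  have e3 : 0 < q ^ 2 - 1 := by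
    have : 2 ^ 2 ≤ q ^ 2 := Nat.pow_le_pow_left hq 2
    omega
  have h3 : n ≤ (q ^ 2 + 1) * (q ^ 3 + 1) := Nat.le_of_mul_le_mul_right h1 e3
  have h4 : (q ^ 2 + 1) * (q ^ 3 + 1) ≤ q ^ 6 := by
    obtain ⟨k, rfl⟩ := Nat.exists_eq_add_of_le hq
    have : (2 + k) ^ 6 = ((2 + k) ^ 2 + 1) * ((2 + k) ^ 3 + 1) + (19 + 96 * k + 153 * k ^ 2 + 119 * k ^ 3 + 50 * k ^ 4 +
        11 * k ^ 5 + k ^ 6) := by ring
    omega
  omega

section

variable {hF : Fintype.card F = q ^ 2} [hs : IsSimpleGroup (PSU 4 F q)] {A : Subgroup (PSU 4 F q)}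
  {Γ : Subgroup (MulAut (PSU 4 F q))} {P : Submodule F (Fin 4 → F)} {t : SIso (formB hF 4)}

theorem perm (h : IF A Γ) {τ : MulAut (PSU 4 F q)} (hτ : τ ∈ Γ) {u : Fin 4 → F} (hu0 : u ≠ 0)
    (hu : hermForm 4 F q u u = 0) (hle : RR hF u hu ≤ A) :
    ∃ (u' : Fin 4 → F) (hu' : hermForm 4 F q u' u' = 0), u' ≠ 0 ∧ RR hF u' hu' ≤ A ∧
      (RR hF u hu).map (τ : PSU 4 F q →* PSU 4 F q) = RR hF u' hu' := by
  obtain ⟨u', hu'0, hu', e⟩ := exists_map_RR hF (by norm_num) τ hu0 hu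
  refine ⟨u', hu', hu'0, ?_, e⟩
  rw [← e]
  rintro _ ⟨x, hx, rfl⟩
  exact (h.inv τ hτ x).2 (hle hx)

/-- **Case I.** -/
theorem case_one (h : IF A Γ) (hP : NP (formB hF 4) P) (hO : On (formB hF 4) (HA hF A) P)
    (hcase : ∀ u : Fin 4 → F, u ≠ 0 → ∀ hu : hermForm 4 F q u u = 0, RR hF u hu ≤ A → u ∈ P) : False := by
  have hfin : Finite (PSU 4 F q) := Quotient.finite _
  have hB := hform hF 4
  have hV : finrank F (Fin 4 → F) = 4 := finrank_fin_fun F
  have cv : ∀ x y : Fin 4 → F, formB hF 4 x y = hermForm 4 F q y x := fun x y => rfl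
  let K : Subgroup (PSU 4 F q) := closure {x | ∃ (u : Fin 4 → F) (hu : hermForm 4 F q u u = 0),
    u ≠ 0 ∧ RR hF u hu ≤ A ∧ x ∈ RR hF u hu}
  have hKA : K ≤ A := by
    rw [closure_le]
    rintro x ⟨u, hu, -, h1, h2⟩
    exact h1 h2
  have hKinv : ∀ τ ∈ Γ, ∀ k ∈ K, τ k ∈ K := by
    intro τ hτ k hk
    induction hk using closure_induction with
    | mem x hx =>
      obtain ⟨u, hu, hu0, h1, h2⟩ := hx
      obtain ⟨u', hu', hu'0, h3, h4⟩ := perm h hτ hu0 hu h1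
      exact subset_closure ⟨u', hu', hu'0, h3, by rw [← h4]; exact ⟨x, h2, rfl⟩⟩
    | one => rw [map_one]; exact K.one_mem
    | mul x y _ _ hx hy => rw [map_mul]; exact K.mul_mem hx hy
    | inv x _ hx => rw [map_inv]; exact K.inv_mem hx
  obtain ⟨e, he, f, hf, hee, hff, hef⟩ := Cfsg.Agent.H450.Bs.exists_hyp hB hP.nd (by rw [hP.dim])
  have he0 : e ≠ 0 := ne_zero_left (B := formB hF 4) (y := f) (by rw [hef]; exact one_ne_zero)
  have hKne : K ≠ ⊥ := by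
    intro hK
    apply RR_ne_bot hF (by norm_num) he0 hee
    rw [eq_bot_iff, ← hK]
    intro x hx
    exact subset_closure ⟨e, hee, he0, (RR_le_iff hF A hee).2 (hO e he he0 hee), hx⟩
  have hQ := np_pp hB hV hP
  obtain ⟨d, hd, d', hd', hdd, hdd', hdd1⟩ := Cfsg.Agent.H450.Bs.exists_hyp hB hQ.nd (by rw [hQ.dim])
  have hd0 : d ≠ 0 := ne_zero_left (B := formB hF 4) (y := d') (by rw [hdd1]; exact one_ne_zero)
  have h5 : RR hF d hdd ≤ A := by
    intro x hx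
    refine Cfsg.Agent.H680.Fxy.IF.norm h hKA hKinv hKne ?_
    have h6 : ∀ k ∈ K, x * k = k * x := by
      intro k hk
      induction hk using closure_induction with
      | mem y hy =>
        obtain ⟨u, hu, hu0, h1, h2⟩ := hy
        refine (RR_commute_iff hF (by norm_num) hd0 hu0 hdd hu).2 ?_ x hx y h2
        have h7 : formB hF 4 d u = 0 := hd u (hcase u hu0 hu h1)
        exact hB.swap_zero h7
      | one => rw [mul_one, one_mul]
      | mul y z _ _ hy hz => rw [← mul_assoc, hy, mul_assoc, hz, mul_assoc]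
      | inv y _ hy =>
        have h8 : Commute x y := hy
        exact h8.inv_right
    intro k hk
    rw [h6 k hk, mul_assoc, mul_inv_cancel, mul_one]
    exact hk
  exact hd0 (hP.nd d (hcase d hd0 hdd h5) hd)

/-- the bound of the index, when `RR p` is invariant under `Γ` -/
theorem index_le {p : Fin 4 → F} (hp0 : p ≠ 0) (hp : hermForm 4 F q p p = 0)
    (hnorm : ∀ g : SU 4 F q, ∀ c : F, c ≠ 0 → act g p = c • p → pr 4 F q g ∈ A) (hF : Fintype.card F = q ^ 2) :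
    A.index * (q ^ 2 - 1) ≤ (q ^ 4 - 1) * (q ^ 3 + 1) := by
  have hB := hform hF 4
  have hV : finrank F (Fin 4 → F) = 4 := finrank_fin_fun F
  have hsurj : ∀ x : PSU 4 F q ⧸ A, ∃ g : SU 4 F q, ((pr 4 F q g : PSU 4 F q) : PSU 4 F q ⧸ A) = x := by
    intro x
    induction x using QuotientGroup.induction_on with
    | H y =>
      obtain ⟨g, rfl⟩ := pr_surjective y
      exact ⟨g, rfl⟩
  choose r hr using hsurj
  have h1 := ncard_iso hF hB
  have h2 : isoNum q 4 = (q ^ 4 - 1) * (q ^ 3 + 1) := if_pos (by decide)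
  rw [hV, h2, ← Nat.card_coe_set_eq] at h1
  rw [← h1]
  have h3 : Nat.card Fˣ = q ^ 2 - 1 := by
    rw [Nat.card_units, Nat.card_eq_fintype_card, hF]
  rw [Subgroup.index, ← h3, ← Nat.card_prod]
  refine Nat.card_le_card_of_injective (fun x : (PSU 4 F q ⧸ A) × Fˣ =>
    (⟨x.2.1 • act (r x.1) p, smul_ne_zero x.2.ne_zero (fun e => hp0 ((act_eq_zero _).1 e)), ?_⟩ :
      ({v : Fin 4 → F | v ≠ 0 ∧ formB hF 4 v v = 0} : Set (Fin 4 → F)))) ?_
  · rw [formB_apply, herm_smul_left, herm_smul_right, herm_act, hp, mul_zero, mul_zero]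
  · rintro ⟨X, c⟩ ⟨Y, d⟩ hXY
    have h4 : c.1 • act (r X) p = d.1 • act (r Y) p := congrArg Subtype.val hXY
    have h5 : act ((r Y)⁻¹ * r X) p = (c.1⁻¹ * d.1) • p := by
      have h6 : act (r X) p = (c.1⁻¹ * d.1) • act (r Y) p := by
        rw [mul_smul, ← h4, smul_smul, inv_mul_cancel₀ c.ne_zero, one_smul]
      rw [act_mul, h6, act_smul, act_inv_act]
    have h6 := hnorm _ _ (mul_ne_zero (inv_ne_zero c.ne_zero) d.ne_zero) h5
    rw [map_mul, map_inv] at h6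
    have h7 : ((pr 4 F q (r Y) : PSU 4 F q) : PSU 4 F q ⧸ A) = (pr 4 F q (r X) : PSU 4 F q) := QuotientGroup.eq.2 h6
    rw [hr, hr] at h7
    subst h7
    have h8 : (c.1 - d.1) • act (r Y) p = 0 := by rw [sub_smul, h4, sub_self]
    have h9 : c.1 = d.1 := sub_eq_zero.1 ((smul_eq_zero.1 h8).resolve_right (fun e => hp0 ((act_eq_zero _).1 e)))
    rw [Units.ext h9]

/-- `t` is not scalar -/
theorem not_scal {V : Type*} [AddCommGroup V] [Module F V] [FiniteDimensional F V] {σ : F →+* F}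
    {B : V →ₛₗ[σ] V →ₗ[F] F} (hB : HForm B) (h2 : (2 : F) ≠ 0) (hV : finrank F V = 4) {P : Submodule F V}
    (hP : NP B P) {t : V ≃ₗ[F] V} (ht : Neg B t P) : ¬ Scal t := by
  rintro ⟨a, ha⟩
  obtain ⟨e, he, f, hf, hee, hff, hef⟩ := Cfsg.Agent.H450.Bs.exists_hyp hB hP.nd (by rw [hP.dim])
  have he0 : e ≠ 0 := ne_zero_left (B := B) (y := f) (by rw [hef]; exact one_ne_zero)
  have hQ := np_pp hB hV hP
  obtain ⟨d, hd, d', hd', hdd, hdd', hdd1⟩ := Cfsg.Agent.H450.Bs.exists_hyp hB hQ.nd (by rw [hQ.dim])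
  have hd0 : d ≠ 0 := ne_zero_left (B := B) (y := d') (by rw [hdd1]; exact one_ne_zero)
  have e1 : a • d = d := by rw [← ha, ht.2 d hd]
  have e2 : a • e = -e := by rw [← ha, ht.1 e he]
  have e3 : a = 1 := by
    have : (a - 1) • d = 0 := by rw [sub_smul, one_smul, e1, sub_self]
    exact sub_eq_zero.1 ((smul_eq_zero.1 this).resolve_right hd0)
  rw [e3, one_smul] at e2
  exact he0 (self_add_self h2 e2)


/-- **Case II.** -/
theorem case_two (h2 : (2 : F) ≠ 0) (h : IF A Γ) (hNC : NC (HA hF A)) (hP : NP (formB hF 4) P)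
    (ht : Neg (formB hF 4) t.1 P) (htH : t.1 ∈ HA hF A) (hO : On (formB hF 4) (HA hF A) P) {u : Fin 4 → F}
    (hu : hermForm 4 F q u u = 0) (huA : RR hF u hu ≤ A) (huP : u ∉ P) : False := by
  have hfin : Finite (PSU 4 F q) := Quotient.finite _
  have hB := hform hF 4
  have hV : finrank F (Fin 4 → F) = 4 := finrank_fin_fun F
  have hH := (Cfsg.Agent.H847.IF.pk_of_IF hF h).le
  have hQ := np_pp hB hV hP
  have split : ∀ c₁ c₂ : Fin 4 → F, c₁ ∈ P → c₂ ∈ pp (formB hF 4) P → formB hF 4 (c₁ + c₂) (c₁ + c₂) = 0 →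
      PP (formB hF 4) (HA hF A) (c₁ + c₂) → formB hF 4 c₂ c₂ = 0 ∧ PP (formB hF 4) (HA hF A) c₂ := by
    intro c₁ c₂ h1 h1' hc hp
    have h11 := not_mixed hB h2 hH hP ht htH hNC h1 h1' hc hp
    have h21 : formB hF 4 c₂ c₁ = 0 := h1' c₁ h1
    have h12 : formB hF 4 c₁ c₂ = 0 := hB.swap_zero h21
    have h22 : formB hF 4 c₂ c₂ = 0 := by
      rw [B_left hB, map_add, map_add, h12, h21, h11] at hc
      linear_combination hc
    exact ⟨h22, pp_snd hB h2 hH ht htH hO h1 h1' h11 h22 hp⟩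
  obtain ⟨c₁, h1, p, hpP, rfl⟩ := decomp hB hP u
  obtain ⟨hpp, hpc⟩ := split c₁ p h1 hpP hu ((RR_le_iff hF A hu).1 huA)
  have hp0 : p ≠ 0 := by
    rintro rfl
    rw [add_zero] at huP
    exact huP h1
  obtain ⟨l, hl0, hl⟩ := exists_trz hB
  have horth : ∀ c₂ ∈ pp (formB hF 4) P, formB hF 4 c₂ c₂ = 0 → PP (formB hF 4) (HA hF A) c₂ →
      formB hF 4 p c₂ = 0 := by
    intro c₂ h3 h4 h5
    obtain ⟨g, hg⟩ := exists_tv hpp l
    obtain ⟨g', hg'⟩ := exists_tv h4 l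
    exact orth_snd hB h2 hV hP ht htH hNC hO hpP h3 hpp h4 hl0 hl0 hg hg' (hpc l hl g hg) (h5 l hl g' hg')
  have hporth : ∀ v, ∀ hv : hermForm 4 F q v v = 0, RR hF v hv ≤ A → formB hF 4 p v = 0 := by
    intro v hv hle
    obtain ⟨c₁, h3, c₂, h3', rfl⟩ := decomp hB hP v
    obtain ⟨h4, h5⟩ := split c₁ c₂ h3 h3' hv ((RR_le_iff hF A hv).1 hle)
    rw [map_add, hpP c₁ h3, zero_add]
    exact horth c₂ h3' h4 h5
  -- the centres orthogonal to all centres
  have huniq : ∀ v : Fin 4 → F, v ≠ 0 → ∀ hv : hermForm 4 F q v v = 0, RR hF v hv ≤ A →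
      (∀ w : Fin 4 → F, w ≠ 0 → ∀ hw : hermForm 4 F q w w = 0, RR hF w hw ≤ A → formB hF 4 v w = 0) →
      ∃ c : F, c ≠ 0 ∧ v = c • p := by
    intro v hv0 hv hle hall
    obtain ⟨c₁, h3, c₂, h3', rfl⟩ := decomp hB hP v
    have hc1 : c₁ = 0 := by
      apply hP.nd c₁ h3
      intro y hy
      obtain ⟨e, he, f, hf, hee, hff, hef⟩ := Cfsg.Agent.H450.Bs.exists_hyp hB hP.nd (by rw [hP.dim])
      have hef0 : formB hF 4 e f ≠ 0 := by rw [hef]; exact one_ne_zero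
      obtain ⟨a, b, rfl⟩ := span_two hB hP.dim he hf hee hff hef0 hy
      have key : ∀ z ∈ P, z ≠ 0 → formB hF 4 z z = 0 → formB hF 4 c₁ z = 0 := by
        intro z hz hz0 hzz
        have h7 := hall z hz0 hzz ((RR_le_iff hF A hzz).2 (hO z hz hz0 hzz))
        rw [B_left hB, h3' z hz, add_zero] at h7
        exact h7
      rw [map_add, smul_right, smul_right, key e he (ne_zero_left hef0) hee, key f hf (ne_zero_right hef0) hff,
        mul_zero, mul_zero, add_zero]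
    have h7 := hporth _ hv hle
    rw [map_add, hpP c₁ h3, zero_add] at h7
    obtain ⟨c, hc⟩ := orth_line hB hQ hpP hp0 hpp h3' h7
    refine ⟨c, ?_, by rw [hc1, zero_add, hc]⟩
    rintro rfl
    rw [zero_smul] at hc
    exact hv0 (by rw [hc1, hc, zero_add])
  have hpA : RR hF p hpp ≤ A := (RR_le_iff hF A hpp).2 hpc
  have hinv : ∀ τ ∈ Γ, ∀ k ∈ RR hF p hpp, τ k ∈ RR hF p hpp := by
    intro τ hτ k hk
    obtain ⟨p₁, hp₁, hp₁0, hp₁A, hmap⟩ := perm h hτ hp0 hpp hpA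
    obtain ⟨c, hc, rfl⟩ := huniq p₁ hp₁0 hp₁ hp₁A (by
      intro v hv0 hv hvA
      obtain ⟨w, hw, hw0, hwA, hwm⟩ := perm h (Γ.inv_mem hτ) hv0 hv hvA
      have h5 : hermForm 4 F q p₁ v = 0 := by
        rw [← RR_commute_iff hF (by norm_num) hp₁0 hv0 hp₁ hv]
        intro x hx y hy
        rw [← hmap] at hx
        obtain ⟨x, hx, rfl⟩ := hx
        have hy' : τ⁻¹ y ∈ RR hF w hw := by rw [← hwm]; exact ⟨y, hy, rfl⟩
        have h6 := (RR_commute_iff hF (by norm_num) hp0 hw0 hpp hw).2 (by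
          have h8 : formB hF 4 p w = 0 := hporth w hw hwA
          exact hB.swap_zero h8) x hx _ hy'
        have h7 := congrArg τ h6
        rw [map_mul, map_mul, MulAut.apply_inv_self] at h7
        exact h7
      exact herm_eq_zero_swap hF h5)
    rw [← RR_le hF hpp hc hp₁, ← hmap]
    exact ⟨k, hk, rfl⟩
  have hnorm : ∀ g : SU 4 F q, ∀ c : F, c ≠ 0 → act g p = c • p → pr 4 F q g ∈ A := by
    intro g c hc hg
    exact Cfsg.Agent.H680.Fxy.IF.norm h hpA hinv (RR_ne_bot hF (by norm_num) hp0 hpp)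
      (fun k hk => norm_RR hF hpp g hc hg hk)
  have hcount := index_le hp0 hpp hnorm hF
  -- the lower bound
  obtain ⟨p', hp'P, hp'p', hne⟩ := partner hB hQ hpP hp0 hpp
  have hp'0 : p' ≠ 0 := ne_zero_right hne
  have hph : hermForm 4 F q p' p' = 0 := hp'p'
  have hdisj : A.subgroupOf (RR hF p' hph) = ⊥ := by
    rw [eq_bot_iff]
    rintro ⟨x, hx⟩ hxA
    obtain ⟨μ, hμ, rfl⟩ := mem_RR.1 hx
    have hxA' : pr 4 F q (transv hF p' hph μ hμ) ∈ A := hxA
    by_cases hμ0 : μ = 0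
    · rw [mem_bot]
      apply Subtype.ext
      have h8 : transv hF p' hph μ hμ = 1 := by
        apply ext_act
        intro v
        rw [act_transv, hμ0, zero_mul, zero_smul, add_zero, act_one]
      change pr 4 F q (transv hF p' hph μ hμ) = 1
      rw [h8, map_one]
    · exfalso
      obtain ⟨g, hg⟩ := exists_tv hpp l
      refine hne (orth_snd hB h2 hV hP ht htH hNC hO hpP hp'P hpp hp'p' hl0 hμ0 hg (isTv_toIso hF hph hμ)
        (hpc l hl g hg) ?_)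
      rw [mem_HA, pi_toIso]
      exact hxA'
  have hrel : q ≤ A.relIndex (RR hF p' hph) := by
    rw [Subgroup.relIndex, hdisj, Subgroup.index_bot]
    exact card_RR hF (by norm_num) hp'0 hph
  have hna : ∃ a b : PSU 4 F q, a * b ≠ b * a := by
    by_contra hcon
    push Not at hcon
    exact Cfsg.Agent.CpAut.Fix.not_comm_quot (H := SU 4 F q) (hs := hs) ⟨⟨hcon⟩⟩
  have htA : Cfsg.Agent.H450.UF.pi hF 4 t ∈ A := (mem_HA hF A t).1 htH
  have ho : orderOf (Cfsg.Agent.H450.UF.pi hF 4 t) = 2 := by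
    apply orderOf_eq_prime
    · rw [pow_two, ← map_mul, pi_eq_one_iff hF (by norm_num)]
      exact ⟨1, fun v => by
        rw [one_smul]
        exact tt hB hP ht v⟩
    · rw [Ne, pi_eq_one_iff hF (by norm_num)]
      exact not_scal hB h2 hV hP ht
  have hE := (Cfsg.Agent.H680.Fxy.IF.E1 h ((h.conj _).2 htA) (by
    rw [Cfsg.Agent.H999.IFB.orderOf_conj hna, ho]) (B := RR hF p' hph) (by
    intro b hb
    obtain ⟨μ, hμ, rfl⟩ := mem_RR.1 hb
    have h8 : pr 4 F q (transv hF p' hph μ hμ) =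
      Cfsg.Agent.H450.UF.pi hF 4 (toIso hF (transv hF p' hph μ hμ)) := (pi_toIso hF _).symm
    rw [h8, MulAut.conj_apply, mul_inv_eq_iff_eq_mul, ← map_mul, ← map_mul]
    congr 1
    apply Subtype.ext
    apply LinearEquiv.ext
    intro v
    change t.1 ((toIso hF (transv hF p' hph μ hμ)).1 v) = (toIso hF (transv hF p' hph μ hμ)).1 (t.1 v)
    rw [isTv_toIso hF hph hμ v, isTv_toIso hF hph hμ (t.1 v), map_add, map_smul, ht.2 p' hp'P]
    have h9 : formB hF 4 p' (t.1 v) = formB hF 4 p' v := by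
      have h10 := t.2.2 p' v
      rw [ht.2 p' hp'P] at h10
      exact h10
    rw [h9])).2
  exact numeric (two_le hF) hcount ((Nat.pow_le_pow_left hrel 6).trans_lt hE)

/-- **no two distinct commuting involutions** -/
theorem false_of (h2 : (2 : F) ≠ 0) (h : IF A Γ) (hNC : NC (HA hF A)) (hP : NP (formB hF 4) P)
    (ht : Neg (formB hF 4) t.1 P) (htH : t.1 ∈ HA hF A) (hO : On (formB hF 4) (HA hF A) P) : False := by
  by_cases hcase : ∀ u : Fin 4 → F, u ≠ 0 → ∀ hu : hermForm 4 F q u u = 0, RR hF u hu ≤ A → u ∈ P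
  · exact case_one h hP hO hcase
  · push Not at hcase
    obtain ⟨u, -, hu, huA, huP⟩ := hcase
    exact case_two h2 h hNC hP ht htH hO hu huA huP

end

/-- **W7**: the rank one case. -/
theorem rank_one (hF : Fintype.card F = q ^ 2) [hs : IsSimpleGroup (PSU 4 F q)] (h2 : (2 : F) ≠ 0)
    (no_second : ∀ H : Subgroup ((Fin 4 → F) ≃ₗ[F] (Fin 4 → F)), Pk (formB hF 4) H → StepC (formB hF 4) H →
      ∀ t ∈ H, ∀ m : F, m ^ (q + 1) = -1 → (∀ v, t (t v) = (m * m) • v) → False)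
    (no_refl : ∀ H : Subgroup ((Fin 4 → F) ≃ₗ[F] (Fin 4 → F)), Pk (formB hF 4) H →
      ∀ t ∈ H, ∀ v : Fin 4 → F, formB hF 4 v v ≠ 0 → ∀ m : F, m ≠ 0 → t v = -(m • v) →
      (∀ u, formB hF 4 v u = 0 → t u = m • u) → False)
    (types : ∀ t ∈ SIso (formB hF 4), ¬ Scal t → Scal (t * t) →
      (∃ (P : Submodule F (Fin 4 → F)) (s : (Fin 4 → F) ≃ₗ[F] (Fin 4 → F)) (a : F), NP (formB hF 4) P ∧
        Neg (formB hF 4) s P ∧ s ∈ SIso (formB hF 4) ∧ (∀ v, t v = a • s v)) ∨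
      (∃ (v : Fin 4 → F) (m : F), formB hF 4 v v ≠ 0 ∧ m ≠ 0 ∧ t v = -(m • v) ∧
        ∀ u, formB hF 4 v u = 0 → t u = m • u) ∨
      (∃ m : F, m ^ (q + 1) = -1 ∧ ∀ v, t (t v) = (m * m) • v))
    (A : Subgroup (PSU 4 F q)) (Γ : Subgroup (MulAut (PSU 4 F q))) (h : IF A Γ) (hev : Even (Nat.card A))
    (hC : StepC (formB hF 4) (HA hF A))
    (hno : ∀ s ∈ A, ∀ t ∈ A, orderOf s = 2 → orderOf t = 2 → s * t = t * s → s = t) : False := by
  have hfin : Finite (PSU 4 F q) := Quotient.finite _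
  have hB := hform hF 4
  have hV : finrank F (Fin 4 → F) = 4 := finrank_fin_fun F
  have hPk := Cfsg.Agent.H847.IF.pk_of_IF hF h
  have hNC := nc_of hF hno
  have hfp : Fact (Nat.Prime 2) := ⟨Nat.prime_two⟩
  obtain ⟨a, ha⟩ := exists_prime_orderOf_dvd_card' 2 hev.two_dvd
  have ha2 : orderOf (a : PSU 4 F q) = 2 := by rw [Subgroup.orderOf_coe, ha]
  obtain ⟨x, hx⟩ := pi_surjective hF 4 (a : PSU 4 F q)
  have hxH : x.1 ∈ HA hF A := (mem_HA hF A x).2 (by rw [hx]; exact a.2)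
  have hx1 : ¬ Scal x.1 := by
    intro h1
    rw [← pi_eq_one_iff hF (by norm_num)] at h1
    rw [← hx, h1, orderOf_one] at ha2
    omega
  have hx2 : Scal (x.1 * x.1) := by
    have h1 : Cfsg.Agent.H450.UF.pi hF 4 (x * x) = 1 := by
      rw [map_mul, ← pow_two, hx]
      exact ha2 ▸ pow_orderOf_eq_one _
    exact (pi_eq_one_iff hF (by norm_num) _).1 h1
  obtain ⟨P, s, hP, hN, hs0, hsH⟩ : ∃ (P : Submodule F (Fin 4 → F)) (s : (Fin 4 → F) ≃ₗ[F] (Fin 4 → F)),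
      NP (formB hF 4) P ∧ Neg (formB hF 4) s P ∧ s ∈ SIso (formB hF 4) ∧ s ∈ HA hF A := by
    rcases types x.1 x.2 hx1 hx2 with ⟨P, s0, b, hP, hN, h0, h1⟩ | ⟨v, m, h1, h2', h3, h4⟩ | ⟨m, h1, h2'⟩
    · refine ⟨P, s0, hP, hN, h0, ?_⟩
      have hb : b ≠ 0 := by
        rintro rfl
        obtain ⟨v0, hv0⟩ := exists_ne (0 : Fin 4 → F)
        have h3 := h1 v0
        rw [zero_smul, LinearEquiv.map_eq_zero_iff] at h3
        exact hv0 h3
      have hz : s0 * x.1⁻¹ ∈ HA hF A := by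
        refine hPk.sc _ ((SIso (formB hF 4)).mul_mem h0 ((SIso (formB hF 4)).inv_mem x.2)) ⟨b⁻¹, fun v => ?_⟩
        have h3 : x.1 (x.1⁻¹ v) = v := by
          rw [← LinearEquiv.mul_apply, mul_inv_cancel]
          rfl
        rw [h1] at h3
        rw [LinearEquiv.mul_apply, eq_inv_smul_iff₀ hb, h3]
      have h3 := (HA hF A).mul_mem hz hxH
      rwa [inv_mul_cancel_right] at h3
    · exact (no_refl _ hPk x.1 hxH v h1 m h2' h3 h4).elim
    · exact (no_second _ hPk hC x.1 hxH m h1 h2').elim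
  rcases hC P s hP hN hsH with hO | hO
  · exact false_of (t := ⟨s, hs0⟩) h2 h hNC hP hN hsH hO
  · have h3 : (LinearEquiv.neg F : (Fin 4 → F) ≃ₗ[F] (Fin 4 → F)) ∈ SIso (formB hF 4) := neg_SIso hV
    have h4 := hPk.sc _ h3 ⟨-1, fun v => by rw [LinearEquiv.neg_apply, neg_smul, one_smul]⟩
    exact false_of (t := ⟨LinearEquiv.neg F * s, mul_mem h3 hs0⟩) h2 h hNC (np_pp hB hV hP) (neg_pp hB hP hN)
      (mul_mem h4 hsH) hO

end Cfsg.Agent.H974.IFU
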