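import Cfsg.Agent.H974.IFU.Geo

/-!
# S5719, `PSU_4(q)`: the orthogonal plane (helper974)

* `np_pp`, `pp_pp`, `neg_SIso`, `neg_pp` : replacing `P` by `P^⊥` and `t` by `-t`.
* `orth_line` : the vectors of a nondegenerate plane orthogonal to an isotropic vector.
-/

set_option autoImplicit false
set_option linter.unusedSectionVars false

namespace Cfsg.Agent.H974.IFU

open Module Subgroup Cfsg Cfsg.Agent.H91.U Cfsg.Agent.H450.UF Cfsg.Agent.H450.Bs Cfsg.Agent.H838.IF

section

variable {F V : Type*} [Field F] [AddCommGroup V] [Module F V] [Finite F] [FiniteDimensional F V] {σ : F →+* F}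
  {B : V →ₛₗ[σ] V →ₗ[F] F} {H : Subgroup (V ≃ₗ[F] V)} {P : Submodule F V}

theorem np_pp (hB : HForm B) (hV : finrank F V = 4) (hP : NP B P) : NP B (pp B P) := by
  refine ⟨?_, ?_⟩
  · have := finrank_pp hB P
    rw [hP.dim, hV] at this
    omega
  · intro x hx hxy
    apply hB.nd.1 x
    intro y
    obtain ⟨a, ha, b, hb, rfl⟩ := decomp hB hP y
    rw [map_add, hx a ha, hxy b hb, add_zero]

theorem pp_pp (hB : HForm B) (hP : NP B P) : pp B (pp B P) = P := by
  apply le_antisymm
  · intro u hu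
    obtain ⟨a, ha, b, hb, rfl⟩ := decomp hB hP u
    have hb0 : b = 0 := by
      apply hB.nd.1 b
      intro y
      obtain ⟨c, hc, d, hd, rfl⟩ := decomp hB hP y
      rw [map_add, hb c hc, zero_add]
      have h1 := hu d hd
      rw [B_left hB, hB.swap_zero (hd a ha), zero_add] at h1
      exact h1
    rw [hb0, add_zero]
    exact ha
  · intro u hu z hz
    exact hB.swap_zero (hz u hu)

theorem neg_SIso (hV : finrank F V = 4) : (LinearEquiv.neg F : V ≃ₗ[F] V) ∈ SIso B := by
  refine ⟨?_, fun x y => ?_⟩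
  · apply Units.ext
    rw [LinearEquiv.coe_det, Units.val_one]
    have h1 : ((LinearEquiv.neg F : V ≃ₗ[F] V) : V →ₗ[F] V) = (-1 : F) • LinearMap.id := by
      ext v
      simp
    rw [h1, LinearMap.det_smul, hV, LinearMap.det_id]
    norm_num
  · rw [LinearEquiv.neg_apply, LinearEquiv.neg_apply, map_neg, map_neg, LinearMap.neg_apply, neg_neg]

theorem neg_pp (hB : HForm B) (hP : NP B P) {t : V ≃ₗ[F] V} (ht : Neg B t P) :
    Neg B (LinearEquiv.neg F * t) (pp B P) := by
  refine ⟨fun x hx => ?_, fun u hu => ?_⟩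
  · rw [LinearEquiv.mul_apply, LinearEquiv.neg_apply, ht.2 x hx]
  · rw [pp_pp hB hP] at hu
    rw [LinearEquiv.mul_apply, LinearEquiv.neg_apply, ht.1 u hu, neg_neg]

/-- the vectors of a nondegenerate plane orthogonal to an isotropic vector -/
theorem orth_line (hB : HForm B) (hP : NP B P) {d u : V} (hd : d ∈ P) (hd0 : d ≠ 0) (hdd : B d d = 0)
    (hu : u ∈ P) (hdu : B d u = 0) : ∃ c : F, u = c • d := by
  obtain ⟨y, hy, hey⟩ : ∃ y ∈ P, B d y ≠ 0 := by
    by_contra hcon
    push Not at hcon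
    exact hd0 (hP.nd d hd hcon)
  have h1 : B d ((B d y)⁻¹ • y) = 1 := by rw [smul_right, inv_mul_cancel₀ hey]
  obtain ⟨c, hc⟩ := exists_iso hB hdd h1
  have hm : (B d y)⁻¹ • y + c • d ∈ P := P.add_mem (P.smul_mem _ hy) (P.smul_mem c hd)
  have hne : B d ((B d y)⁻¹ • y + c • d) ≠ 0 := by
    rw [map_add, h1, smul_right, hdd, mul_zero, add_zero]
    exact one_ne_zero
  obtain ⟨a, b, rfl⟩ := span_two hB hP.dim hd hm hdd hc hne hu
  rw [map_add, smul_right, smul_right, hdd, mul_zero, zero_add] at hdu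
  have hb : b = 0 := (mul_eq_zero.1 hdu).resolve_right hne
  exact ⟨a, by rw [hb, zero_smul, add_zero]⟩

end

end Cfsg.Agent.H974.IFU
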